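import Cfsg.Agent.H893.EE.Elts
import Cfsg.Agent.H893.EE.D4Abs

/-!
# The structure half of `d4sys` (S3384, task T4a)

`d4_pre O : D4Pre ↥(Ω₈⁺(4)) (fun i => closure {omA O i, omB O i})`; `d4sys_of` : with `⨆ i, L i = ⊤` this is `D4Sys`.
-/

set_option autoImplicit false

namespace Cfsg.Agent.H893.EE

open Cfsg.Agent.H865.EE Cfsg.Agent.H865.EE.OD Matrix

/-- `e_0 ^ a e_1 ^ b` -/
def P01 (a b : ℕ) : List ℕ := mulB (powB (rE 0) a) (powB (rE 1) b)

/-- `e_2 ^ a e_3 ^ b` -/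
def P23 (a b : ℕ) : List ℕ := mulB (powB (rE 2) a) (powB (rE 3) b)

theorem ok0123 : ((List.range 5).all fun a => (List.range 5).all fun b => okB (P01 a b) && okB (P23 a b)) = true := by
  decide +kernel

set_option maxRecDepth 10000 in
theorem eq0123 : ((List.range 5).all fun a => (List.range 5).all fun b => (List.range 5).all fun c =>
    (List.range 5).all fun d => !(decide (P01 a b = P23 c d)) || decide (a = 0 ∧ b = 0 ∧ c = 0 ∧ d = 0)) = true := by
  decide +kernel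

section
variable {F : Type*} [Field F] (O : Om F)

theorem E_inj {a b c d : ℕ} (ha : a < 5) (hb : b < 5) (hc : c < 5) (hd : d < 5)
    (h : elE O 0 ^ a * elE O 1 ^ b = elE O 2 ^ c * elE O 3 ^ d) : a = 0 ∧ b = 0 ∧ c = 0 ∧ d = 0 := by
  have h1 : HasC O (elE O 0 ^ a * elE O 1 ^ b) (P01 a b) := ((hasE O 0).pow a).mul ((hasE O 1).pow b)
  have h2 : HasC O (elE O 2 ^ c * elE O 3 ^ d) (P23 c d) := ((hasE O 2).pow c).mul ((hasE O 3).pow d)
  have hok := ok0123
  simp only [List.all_eq_true, List.mem_range, Bool.and_eq_true] at hok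
  have h3 : P01 a b = P23 c d := by
    by_contra hne
    exact h1.ne h2 (by rw [(hok a ha b hb).1, (hok c hc d hd).2, decide_eq_true hne]; rfl) h
  have heq := eq0123
  simp only [List.all_eq_true, List.mem_range] at heq
  have h4 := heq a ha b hb c hc d hd
  rw [decide_eq_true h3] at h4
  exact of_decide_eq_true (by simpa using h4)

/-- `Ω₈⁺(F)` -/
abbrev Om8 (F : Type*) [Field F] : Type _ := ↥(Cfsg.Omega F (Cfsg.quadFormPlus 4 F))

/-- `a_i ∈ Ω` -/
def omA (i : Fin 4) : Om8 F := ⟨elA O i, memA O i⟩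
/-- `b_i ∈ Ω` -/
def omB (i : Fin 4) : Om8 F := ⟨elB O i, memB O i⟩
/-- `e_i ∈ Ω` -/
def omE (i : Fin 4) : Om8 F := ⟨elE O i, memE O i⟩
/-- `n_i ∈ Ω` -/
def omN (i : Fin 4) : Om8 F := ⟨elN O i, memN O i⟩

theorem NAB (i : Fin 4) : elN O i * (elA O i * elB O i) * elN O i * (elA O i * elB O i) = 1 :=
  ((((hasN O i).mul ((hasA O i).mul (hasB O i))).mul (hasN O i)).mul ((hasA O i).mul (hasB O i))).eq (HasC.one O)
    (by revert i; decide +kernel)

theorem cAE (i j : Fin 4) (h : (i = 0 ∧ (j = 2 ∨ j = 3)) ∨ (i = 1 ∧ (j = 0 ∨ j = 3)) ∨ ((i = 2 ∨ i = 3) ∧ (j = 0 ∨ j = 1))) :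
    elA O i * elE O j = elE O j * elA O i :=
  ((hasA O i).mul (hasE O j)).eq ((hasE O j).mul (hasA O i)) (by revert i j; decide +kernel)

theorem cBE (i j : Fin 4) (h : (i = 0 ∧ (j = 2 ∨ j = 3)) ∨ (i = 1 ∧ (j = 0 ∨ j = 3)) ∨ ((i = 2 ∨ i = 3) ∧ (j = 0 ∨ j = 1))) :
    elB O i * elE O j = elE O j * elB O i :=
  ((hasB O i).mul (hasE O j)).eq ((hasE O j).mul (hasB O i)) (by revert i j; decide +kernel)

theorem cAEE (i j k : Fin 4) (h : (i = 0 ∧ j = 0 ∧ k = 1) ∨ (i = 1 ∧ j = 1 ∧ k = 2) ∨ (i = 2 ∧ j = 2 ∧ k = 3)) :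
    elA O i * (elE O j * elE O k) = elE O j * elE O k * elA O i :=
  ((hasA O i).mul ((hasE O j).mul (hasE O k))).eq (((hasE O j).mul (hasE O k)).mul (hasA O i))
    (by revert i j k; decide +kernel)

theorem cBEE (i j k : Fin 4) (h : (i = 0 ∧ j = 0 ∧ k = 1) ∨ (i = 1 ∧ j = 1 ∧ k = 2) ∨ (i = 2 ∧ j = 2 ∧ k = 3)) :
    elB O i * (elE O j * elE O k) = elE O j * elE O k * elB O i :=
  ((hasB O i).mul ((hasE O j).mul (hasE O k))).eq (((hasE O j).mul (hasE O k)).mul (hasB O i))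
    (by revert i j k; decide +kernel)

theorem cAE3 : elA O 3 * (elE O 2 * elE O 3 ^ 4) = elE O 2 * elE O 3 ^ 4 * elA O 3 :=
  ((hasA O 3).mul ((hasE O 2).mul ((hasE O 3).pow 4))).eq (((hasE O 2).mul ((hasE O 3).pow 4)).mul (hasA O 3))
    (by decide +kernel)

theorem cBE3 : elB O 3 * (elE O 2 * elE O 3 ^ 4) = elE O 2 * elE O 3 ^ 4 * elB O 3 :=
  ((hasB O 3).mul ((hasE O 2).mul ((hasE O 3).pow 4))).eq (((hasE O 2).mul ((hasE O 3).pow 4)).mul (hasB O 3))
    (by decide +kernel)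

theorem fE_coe (v : V4) : ((fE (omE O) v : Om8 F) : Iso F) = fE (elE O) v := rfl

theorem fE_inj (v : V4) (h : fE (elE O) v = 1) : v = 0 := by
  have h5 : ∀ i, elE O i ^ 5 = 1 := E_five O
  have hc : ∀ i j, elE O i * elE O j = elE O j * elE O i := E_comm O
  have hval : ∀ x : ZMod 5, x.val = 0 → x = 0 := fun x hx => (ZMod.val_eq_zero x).1 hx
  have hneg : fE (elE O) ![0, 0, v 2, v 3] * fE (elE O) ![0, 0, -v 2, -v 3] = 1 := by
    rw [← fE_add h5 hc, ← fE_zero (elE O)]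
    congr 1
    ext k
    fin_cases k <;> simp
  have h1 : elE O 0 ^ (v 0).val * elE O 1 ^ (v 1).val = elE O 2 ^ (-v 2).val * elE O 3 ^ (-v 3).val := by
    have e1 : fE (elE O) ![0, 0, v 2, v 3] = elE O 2 ^ (v 2).val * elE O 3 ^ (v 3).val := by
      simp [fE]
    have e2 : fE (elE O) ![0, 0, -v 2, -v 3] = elE O 2 ^ (-v 2).val * elE O 3 ^ (-v 3).val := by
      simp [fE]
    rw [e1, e2] at hneg
    have h' : elE O 0 ^ (v 0).val * elE O 1 ^ (v 1).val * (elE O 2 ^ (v 2).val * elE O 3 ^ (v 3).val) = 1 := h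
    rw [mul_eq_one_iff_inv_eq] at hneg
    rw [← hneg]
    exact eq_inv_of_mul_eq_one_left h'
  obtain ⟨g0, g1, g2, g3⟩ := E_inj O (ZMod.val_lt _) (ZMod.val_lt _) (ZMod.val_lt _) (ZMod.val_lt _) h1
  funext k
  fin_cases k
  · exact hval _ g0
  · exact hval _ g1
  · exact neg_eq_zero.1 (hval _ g2)
  · exact neg_eq_zero.1 (hval _ g3)

/-- a commuting criterion: `v` is a combination of three vectors -/
theorem comm_of {X : Type*} [Group X] {e : Fin 4 → X} (h5 : ∀ i, e i ^ 5 = 1) (hc : ∀ i j, e i * e j = e j * e i)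
    (x : X) (u₁ u₂ u₃ v : V4) (s₁ s₂ s₃ : ZMod 5) (hv : v = s₁ • u₁ + s₂ • u₂ + s₃ • u₃) (h₁ : Commute x (fE e u₁))
    (h₂ : Commute x (fE e u₂)) (h₃ : Commute x (fE e u₃)) : x * fE e v = fE e v * x := by
  rw [hv, fE_add h5 hc, fE_add h5 hc, smul_val, smul_val, smul_val, fE_nsmul h5 hc, fE_nsmul h5 hc, fE_nsmul h5 hc]
  exact ((h₁.pow_right _).mul_right (h₂.pow_right _)).mul_right (h₃.pow_right _)

theorem val_one5 : (1 : ZMod 5).val = 1 := rfl

theorem fE_s0 {X : Type*} [Group X] (e : Fin 4 → X) : fE e ![1, 0, 0, 0] = e 0 := by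
  simp [fE, val_one5]
theorem fE_s1 {X : Type*} [Group X] (e : Fin 4 → X) : fE e ![0, 1, 0, 0] = e 1 := by
  simp [fE, val_one5]
theorem fE_s2 {X : Type*} [Group X] (e : Fin 4 → X) : fE e ![0, 0, 1, 0] = e 2 := by
  simp [fE, val_one5]
theorem fE_s3 {X : Type*} [Group X] (e : Fin 4 → X) : fE e ![0, 0, 0, 1] = e 3 := by
  simp [fE, val_one5]
theorem fE_s01 {X : Type*} [Group X] (e : Fin 4 → X) : fE e ![1, 1, 0, 0] = e 0 * e 1 := by
  simp [fE, val_one5]
theorem fE_s12 {X : Type*} [Group X] (e : Fin 4 → X) : fE e ![0, 1, 1, 0] = e 1 * e 2 := by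
  simp [fE, val_one5]
theorem fE_s23 {X : Type*} [Group X] (e : Fin 4 → X) : fE e ![0, 0, 1, 1] = e 2 * e 3 := by
  simp [fE, val_one5]
theorem fE_s23' {X : Type*} [Group X] (e : Fin 4 → X) : fE e ![0, 0, 1, -1] = e 2 * e 3 ^ 4 := by
  simp [fE, val_one5]

theorem comm_lam (i : Fin 4) (x : Iso F) (v : V4) (hv : lam i v = 0)
    (h : (i = 0 ∧ Commute x (elE O 2) ∧ Commute x (elE O 3) ∧ Commute x (elE O 0 * elE O 1)) ∨
      (i = 1 ∧ Commute x (elE O 0) ∧ Commute x (elE O 3) ∧ Commute x (elE O 1 * elE O 2)) ∨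
      (i = 2 ∧ Commute x (elE O 0) ∧ Commute x (elE O 1) ∧ Commute x (elE O 2 * elE O 3)) ∨
      (i = 3 ∧ Commute x (elE O 0) ∧ Commute x (elE O 1) ∧ Commute x (elE O 2 * elE O 3 ^ 4))) :
    x * fE (elE O) v = fE (elE O) v * x := by
  rw [lam_apply] at hv
  rcases h with ⟨rfl, h1, h2, h3⟩ | ⟨rfl, h1, h2, h3⟩ | ⟨rfl, h1, h2, h3⟩ | ⟨rfl, h1, h2, h3⟩
  · simp only [rt] at hv
    refine comm_of (E_five O) (E_comm O) x ![0, 0, 1, 0] ![0, 0, 0, 1] ![1, 1, 0, 0] v (v 2) (v 3) (v 0) ?_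
      (by rwa [fE_s2]) (by rwa [fE_s3]) (by rwa [fE_s01])
    have : v 1 = v 0 := by
      simp at hv
      linear_combination -hv
    funext k
    fin_cases k <;> simp [this]
  · simp only [rt] at hv
    refine comm_of (E_five O) (E_comm O) x ![1, 0, 0, 0] ![0, 0, 0, 1] ![0, 1, 1, 0] v (v 0) (v 3) (v 1) ?_
      (by rwa [fE_s0]) (by rwa [fE_s3]) (by rwa [fE_s12])
    have : v 2 = v 1 := by
      simp at hv
      linear_combination -hv
    funext k
    fin_cases k <;> simp [this]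
  · simp only [rt] at hv
    refine comm_of (E_five O) (E_comm O) x ![1, 0, 0, 0] ![0, 1, 0, 0] ![0, 0, 1, 1] v (v 0) (v 1) (v 2) ?_
      (by rwa [fE_s0]) (by rwa [fE_s1]) (by rwa [fE_s23])
    have : v 3 = v 2 := by
      simp at hv
      linear_combination -hv
    funext k
    fin_cases k <;> simp [this]
  · simp only [rt] at hv
    refine comm_of (E_five O) (E_comm O) x ![1, 0, 0, 0] ![0, 1, 0, 0] ![0, 0, 1, -1] v (v 0) (v 1) (v 2) ?_
      (by rwa [fE_s0]) (by rwa [fE_s1]) (by rwa [fE_s23'])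
    have : v 3 = - v 2 := by
      simp at hv
      linear_combination hv
    funext k
    fin_cases k <;> simp [this]

/-- **The structure half.** -/
theorem d4_pre : D4Pre (Om8 F) fun i => Subgroup.closure {omA O i, omB O i} := by
  refine d4_abs (e := omE O) (omA O) (omB O) (omN O) (fun i => Subtype.ext (A_sq O i)) (fun i => Subtype.ext (B_cube O i))
    (fun i => Subtype.ext (AB_five O i)) (fun i h => A_ne O i (congrArg Subtype.val h)) (fun i => rfl)
    (fun i => Subtype.ext (N_sq O i)) (fun i => Subtype.ext (E_five O i)) (fun i j => Subtype.ext (E_comm O i j))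
    (fun v h => fE_inj O v (congrArg Subtype.val h)) ?_ ?_ ?_
  · intro i
    apply Subtype.ext
    show fE (elE O) (rt i) = elA O i * elB O i
    have e1 : fE (elE O) (rt 0) = elE O 0 * elE O 1 ^ 4 := by simp [fE, rt, val_one5]
    have e2 : fE (elE O) (rt 1) = elE O 1 * elE O 2 ^ 4 := by simp [fE, rt, val_one5]
    have e3 : fE (elE O) (rt 2) = elE O 2 * elE O 3 ^ 4 := by simp [fE, rt, val_one5]
    have e4 : fE (elE O) (rt 3) = elE O 2 * elE O 3 := by simp [fE, rt, val_one5]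
    fin_cases i
    · exact e1.trans (((hasE O 0).mul ((hasE O 1).pow 4)).eq ((hasA O 0).mul (hasB O 0)) (by decide +kernel))
    · exact e2.trans (((hasE O 1).mul ((hasE O 2).pow 4)).eq ((hasA O 1).mul (hasB O 1)) (by decide +kernel))
    · exact e3.trans (((hasE O 2).mul ((hasE O 3).pow 4)).eq ((hasA O 2).mul (hasB O 2)) (by decide +kernel))
    · exact e4.trans (AB3 O).symm
  · intro i
    exact Subtype.ext (eq_inv_of_mul_eq_one_left (NAB O i))
  · intro i v hv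
    refine ⟨Subtype.ext (comm_lam O i (elA O i) v hv ?_), Subtype.ext (comm_lam O i (elB O i) v hv ?_)⟩
    · fin_cases i
      · exact Or.inl ⟨rfl, cAE O 0 2 (by decide), cAE O 0 3 (by decide), cAEE O 0 0 1 (by decide)⟩
      · exact Or.inr (Or.inl ⟨rfl, cAE O 1 0 (by decide), cAE O 1 3 (by decide), cAEE O 1 1 2 (by decide)⟩)
      · exact Or.inr (Or.inr (Or.inl ⟨rfl, cAE O 2 0 (by decide), cAE O 2 1 (by decide), cAEE O 2 2 3 (by decide)⟩))
      · exact Or.inr (Or.inr (Or.inr ⟨rfl, cAE O 3 0 (by decide), cAE O 3 1 (by decide), cAE3 O⟩))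
    · fin_cases i
      · exact Or.inl ⟨rfl, cBE O 0 2 (by decide), cBE O 0 3 (by decide), cBEE O 0 0 1 (by decide)⟩
      · exact Or.inr (Or.inl ⟨rfl, cBE O 1 0 (by decide), cBE O 1 3 (by decide), cBEE O 1 1 2 (by decide)⟩)
      · exact Or.inr (Or.inr (Or.inl ⟨rfl, cBE O 2 0 (by decide), cBE O 2 1 (by decide), cBEE O 2 2 3 (by decide)⟩))
      · exact Or.inr (Or.inr (Or.inr ⟨rfl, cBE O 3 0 (by decide), cBE O 3 1 (by decide), cBE3 O⟩))

/-- with the generation half this is `d4sys` -/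
theorem d4sys_of (h : ⨆ i, Subgroup.closure {omA O i, omB O i} = (⊤ : Subgroup (Om8 F))) : D4Sys (Om8 F) :=
  (d4_pre O).sys h

end

end Cfsg.Agent.H893.EE
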